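import Cfsg.Agent.Eq.Def_Solvable
import Cfsg.Agent.PrimePowerClass.Main
import Cfsg.Agent.Constrained.Fitting
import Cfsg.Agent.Cores.Bender

/-!
`q`-Baer groups (Baer; Camina–Camina): elements of `q`-power order with classes of prime power
size lie in `O_q` modulo `O_{q'}`, and two of them have classes of powers of the same prime.
-/

set_option autoImplicit false

universe u

open Cfsg

namespace CfsgLib.QBaer

variable {G : Type u} [Group G] [Finite G]

/-- all elements of `q`-power order have classes of prime power size -/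
def IsBaer (q : ℕ) (G : Type*) [Group G] : Prop :=
  ∀ x : G, (∃ k : ℕ, orderOf x = q ^ k) →
    ∃ r a : ℕ, r.Prime ∧ (Subgroup.centralizer ({x} : Set G)).index = r ^ a

theorem isPGroup_zpowers {q : ℕ} [Fact q.Prime] {x : G} (hx : ∃ k : ℕ, orderOf x = q ^ k) :
    IsPGroup q (Subgroup.zpowers x) := by
  obtain ⟨k, hk⟩ := hx
  exact IsPGroup.of_card (n := k) (by rw [Nat.card_zpowers, hk])

/-- an element centralising a Sylow `q`-subgroup and of `q`-power order lies in it -/
theorem mem_sylow_of_centralizes {q : ℕ} [Fact q.Prime] {x : G} (hx : ∃ k : ℕ, orderOf x = q ^ k)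
    (Q : Sylow q G) (h : ∀ u ∈ (Q : Subgroup G), u * x = x * u) : x ∈ (Q : Subgroup G) := by
  have hle : Subgroup.zpowers x ≤ Subgroup.normalizer ((Q : Subgroup G) : Set G) := by
    rw [Subgroup.zpowers_le]
    rw [Subgroup.mem_normalizer_iff]
    intro u
    constructor
    · intro hu
      rwa [← h u hu, mul_inv_cancel_right]
    · intro hu
      have h1 := h _ hu
      have : x * u * x⁻¹ = u := by
        have h2 : x * u * x⁻¹ * x = x * (x * u * x⁻¹) := h1
        rw [inv_mul_cancel_right] at h2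
        exact (mul_left_cancel h2).symm
      rwa [this] at hu
  have h2 := Q.is_maximal' ((isPGroup_zpowers hx).to_sup_of_normal_right' Q.isPGroup' hle) le_sup_right
  exact h2 ▸ Subgroup.mem_sup_left (Subgroup.mem_zpowers x)

/-- a centraliser of index prime to `q` contains a Sylow `q`-subgroup of the group -/
theorem exists_sylow_le {q : ℕ} [hq : Fact q.Prime] (C : Subgroup G) (h : ¬ q ∣ C.index) :
    ∃ Q : Sylow q G, (Q : Subgroup G) ≤ C := by
  let Q₀ : Sylow q C := Classical.arbitrary _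
  have hcard : Nat.card ↥((Q₀ : Subgroup C).map C.subtype) = q ^ (Nat.card G).factorization q := by
    rw [Subgroup.card_map_of_injective C.subtype_injective, Q₀.card_eq_multiplicity,
      ← C.card_mul_index, Nat.factorization_mul Nat.card_pos.ne' Subgroup.index_ne_zero_of_finite,
      Finsupp.add_apply, Nat.factorization_eq_zero_of_not_dvd h, add_zero]
  exact ⟨Sylow.ofCard _ hcard, Subgroup.map_subtype_le _⟩

theorem not_dvd_prime_pow {q r : ℕ} (hq : q.Prime) (hr : r.Prime) (hrq : r ≠ q) (a : ℕ) :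
    ¬ q ∣ r ^ a := fun h => hrq ((Nat.prime_dvd_prime_iff_eq hq hr).mp (hq.dvd_of_dvd_pow h)).symm

/-- a normal `s`-subgroup is centralised by an element whose class has size prime to `s` -/
theorem commute_of_normal {s : ℕ} [Fact s.Prime] {x : G}
    (h : ¬ s ∣ (Subgroup.centralizer ({x} : Set G)).index) {N : Subgroup G} (hN : N.Normal)
    (hNs : IsPGroup s N) {n : G} (hn : n ∈ N) : x * n = n * x := by
  haveI := hN
  obtain ⟨S, hS⟩ := exists_sylow_le _ h
  exact (Subgroup.mem_centralizer_singleton_iff.mp (hS (hNs.le_sylow_of_normal S hn))).symm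

/-- with `O_{q'} = 1`, every element of `q`-power order with class of prime power size lies in
`O_q` -/
theorem mem_pCore {q : ℕ} [hq : Fact q.Prime] (hO : pPrimeCore q G = ⊥) {x : G}
    (hx : ∃ k : ℕ, orderOf x = q ^ k)
    (hr : ∃ r a : ℕ, r.Prime ∧ (Subgroup.centralizer ({x} : Set G)).index = r ^ a) :
    x ∈ pCore q G := by
  obtain ⟨r, a, hr, hidx⟩ := hr
  rcases eq_or_ne r q with rfl | hrq
  · exact PrimePowerClass.mem_pCore_of_pElem hx ⟨a, hidx⟩
  set R := Cores.solvRad G with hR
  haveI hRn : R.Normal := Subgroup.sSup_normal _ fun _ h => h.1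
  haveI : Group.IsSolvable R := Cores.solvRad_isSolvable
  have hxR : x ∈ R := PrimePowerClass.mem_solvRad hr x ⟨a, hidx⟩
  have hOR : pPrimeCore q R = ⊥ := by
    rw [← Subgroup.map_eq_bot_iff_of_injective _ R.subtype_injective, eq_bot_iff, ← hO]
    exact Constrained.map_pPrimeCore_subgroup_le R
  have hFR := Constrained.fitting_eq_pCore (G := R) (p := q) hOR
  have h1 : (⟨x, hxR⟩ : R) ∈ fittingSubgroup R := by
    apply Constrained.centralizer_fitting_le
    rw [hFR]
    refine Subgroup.mem_centralizer_iff.mpr fun y hy => Subtype.ext ?_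
    exact (commute_of_normal (hidx ▸ not_dvd_prime_pow hq.out hr hrq a) inferInstance
      Constrained.isPGroup_pCore (Constrained.map_pCore_subgroup_le R ⟨y, hy, rfl⟩)).symm
  rw [hFR] at h1
  exact Constrained.map_pCore_subgroup_le R ⟨_, h1, rfl⟩

/-- with `O_p = 1`, an element of `q`-power order with class of `p`-power size (`q ≠ p`) lies in
`O_q` -/
theorem mem_pCore_of_pPower {p q : ℕ} [hp : Fact p.Prime] [hq : Fact q.Prime]
    (hO : pCore p G = ⊥) {x : G} (hx : ∃ k : ℕ, orderOf x = q ^ k)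
    (hidx : ∃ a : ℕ, (Subgroup.centralizer ({x} : Set G)).index = p ^ a) : x ∈ pCore q G := by
  obtain ⟨a, hidx⟩ := hidx
  set R := Cores.solvRad G with hR
  haveI hRn : R.Normal := Subgroup.sSup_normal _ fun _ h => h.1
  haveI : Group.IsSolvable R := Cores.solvRad_isSolvable
  have hxR : x ∈ R := PrimePowerClass.mem_solvRad hp.out x ⟨a, hidx⟩
  have hP : IsPGroup q ↥(Subgroup.zpowers (⟨x, hxR⟩ : R)) := by
    obtain ⟨k, hk⟩ := hx
    refine IsPGroup.of_card (n := k) ?_
    rw [Nat.card_zpowers, ← hk]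
    exact (Subgroup.orderOf_mk x hxR)
  have h1 := Cores.le_pCore_of_centralizes (M := R) Constrained.centralizer_fitting_le hP
    (fun s hs y hy z hz => by
      haveI := Fact.mk hs
      have hxz : (⟨x, hxR⟩ : R) * z = z * ⟨x, hxR⟩ := by
        refine Subtype.ext ?_
        rcases eq_or_ne s p with rfl | hsp
        · have : (z : G) ∈ pCore s G := Constrained.map_pCore_subgroup_le R ⟨z, hz, rfl⟩
          rw [hO, Subgroup.mem_bot] at this
          show x * (z : G) = (z : G) * x
          rw [this, mul_one, one_mul]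
        · exact commute_of_normal (hidx ▸ not_dvd_prime_pow hs hp.out hsp.symm a) inferInstance
            Constrained.isPGroup_pCore (Constrained.map_pCore_subgroup_le R ⟨z, hz, rfl⟩)
      obtain ⟨i, rfl⟩ := Subgroup.mem_zpowers_iff.mp hy
      exact (Commute.zpow_left hxz i).eq)
  exact Constrained.map_pCore_subgroup_le R ⟨_, h1 (Subgroup.mem_zpowers _), rfl⟩

/-- an element of prime power order of a quotient lifts to one of the group -/
theorem exists_lift {H : Type*} [Group H] (f : G →* H) (hf : Function.Surjective f) {q : ℕ}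
    (hq : q.Prime) {y : H} (hy : ∃ k : ℕ, orderOf y = q ^ k) :
    ∃ x : G, (∃ k : ℕ, orderOf x = q ^ k) ∧ f x = y := by
  obtain ⟨k, hk⟩ := hy
  obtain ⟨x, rfl⟩ := hf y
  set n := orderOf x with hn
  have hn0 : n ≠ 0 := (orderOf_pos x).ne'
  set m := n / q ^ n.factorization q with hm
  have hnm : q ^ n.factorization q * m = n := Nat.ordProj_mul_ordCompl_eq_self n q
  have hcop : Nat.Coprime m (q ^ k) :=
    Nat.Coprime.pow_right k (Nat.coprime_ordCompl hq hn0).symm
  obtain ⟨t, ht⟩ : ∃ t, m * t ≡ 1 [MOD q ^ k] := by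
    rcases Nat.eq_zero_or_pos k with rfl | hk0
    · exact ⟨0, by simp [Nat.ModEq, Nat.mod_one]⟩
    · obtain ⟨t, ht⟩ := Nat.exists_mul_mod_eq_one_of_coprime hcop (Nat.one_lt_pow hk0.ne' hq.one_lt)
      exact ⟨t, by rw [Nat.ModEq, Nat.one_mod_eq_one.mpr (Nat.one_lt_pow hk0.ne' hq.one_lt).ne']; exact ht.2⟩
  refine ⟨x ^ (m * t), ?_, ?_⟩
  · have : (x ^ (m * t)) ^ q ^ n.factorization q = 1 := by
      rw [← pow_mul, mul_comm, ← mul_assoc, hnm, pow_mul, hn, pow_orderOf_eq_one, one_pow]
    obtain ⟨j, -, hj⟩ := (Nat.dvd_prime_pow hq).mp (orderOf_dvd_of_pow_eq_one this)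
    exact ⟨j, hj⟩
  · rw [map_pow]
    conv_rhs => rw [← pow_one (f x)]
    exact pow_eq_pow_iff_modEq.mpr (by rw [hk]; exact ht)

theorem IsBaer.quotient {q : ℕ} [hq : Fact q.Prime] (h : IsBaer q G) (N : Subgroup G) [N.Normal] :
    IsBaer q (G ⧸ N) := by
  intro y hy
  obtain ⟨x, hx, rfl⟩ := exists_lift (QuotientGroup.mk' N) (QuotientGroup.mk'_surjective N) hq.out hy
  obtain ⟨r, a, hr, ha⟩ := h x hx
  obtain ⟨b, -, hb⟩ := (Nat.dvd_prime_pow hr).mp (ha ▸ PrimePowerClass.index_map_centralizer_dvd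
    (QuotientGroup.mk' N) (QuotientGroup.mk'_surjective N) x)
  exact ⟨r, b, hr, hb⟩

/-- the orbit of an element under conjugation has as many elements as the index of its
centraliser -/
theorem card_conjugatesOf (x : G) :
    Nat.card (conjugatesOf x) = (Subgroup.centralizer ({x} : Set G)).index := by
  symm
  refine Nat.card_eq_of_bijective (Quotient.lift
    (fun g => (⟨g * x * g⁻¹, isConj_iff.mpr ⟨g, rfl⟩⟩ : conjugatesOf x)) ?_) ⟨?_, ?_⟩
  · intro g g' hgg'
    have h1 := Subgroup.mem_centralizer_singleton_iff.mp (QuotientGroup.leftRel_apply.mp hgg')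
    refine Subtype.ext ?_
    show g * x * g⁻¹ = g' * x * g'⁻¹
    have h2 : g' * x = g * x * (g⁻¹ * g') := by
      rw [mul_assoc g x, ← h1]; group
    rw [h2]; group
  · rintro ⟨g⟩ ⟨g'⟩ e
    have e' : g * x * g⁻¹ = g' * x * g'⁻¹ := congrArg Subtype.val e
    apply Quotient.sound
    refine QuotientGroup.leftRel_apply.mpr (Subgroup.mem_centralizer_singleton_iff.mpr ?_)
    calc g⁻¹ * g' * x = g⁻¹ * (g' * x * g'⁻¹) * g' := by group
      _ = g⁻¹ * (g * x * g⁻¹) * g' := by rw [e']
      _ = x * (g⁻¹ * g') := by group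
  · rintro ⟨y, hy⟩
    obtain ⟨g, rfl⟩ := isConj_iff.mp hy
    exact ⟨QuotientGroup.mk g, rfl⟩

/-- commuting `x`, `y` with classes of powers of different primes `p`, `r`: the class of `x * y`
is larger than that of `x` -/
theorem no_mixed {p r q : ℕ} [hp : Fact p.Prime] (hr : r.Prime) [hq : Fact q.Prime] (hpq : p ≠ q)
    (hrp : r ≠ p) {x y : G} {a b : ℕ}
    (hx : (Subgroup.centralizer ({x} : Set G)).index = p ^ a)
    (hy : (Subgroup.centralizer ({y} : Set G)).index = r ^ b) (hb : b ≠ 0)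
    (hyq : ∃ k : ℕ, orderOf y = q ^ k)
    (hxy : (Subgroup.centralizer ({x * y} : Set G)).index ∣ p ^ a) : False := by
  classical
  set X := conjugatesOf x with hX
  set Z := conjugatesOf (x * y) with hZ
  have hpair : ∀ g h : G, ∃ k : G, k * x * k⁻¹ = g * x * g⁻¹ ∧ k * y * k⁻¹ = h * y * h⁻¹ := by
    intro g h
    obtain ⟨c, hc, d, hd, e⟩ := Product.exists_mul_of_coprime_index
      (H := Subgroup.centralizer ({x} : Set G)) (K := Subgroup.centralizer ({y} : Set G))
      (by rw [hx, hy]; exact Nat.coprime_pow_primes _ _ hp.out hr hrp.symm) (g⁻¹ * h)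
    refine ⟨g * c, ?_, ?_⟩
    · rw [mul_assoc g c x, Subgroup.mem_centralizer_singleton_iff.mp hc]; group
    · have e' : g * c = h * d⁻¹ := by
        rw [eq_mul_inv_iff_mul_eq, mul_assoc, ← e, mul_inv_cancel_left]
      rw [e', mul_assoc h d⁻¹ y,
        Subgroup.mem_centralizer_singleton_iff.mp (inv_mem hd)]
      group
  have hmem : ∀ u ∈ X, ∀ v ∈ conjugatesOf y, u * v ∈ Z := by
    intro u hu v hv
    obtain ⟨g, rfl⟩ := isConj_iff.mp hu
    obtain ⟨h, rfl⟩ := isConj_iff.mp hv
    obtain ⟨k, hk1, hk2⟩ := hpair g h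
    exact isConj_iff.mpr ⟨k, by rw [← hk1, ← hk2]; group⟩
  have hcardX : Nat.card X = p ^ a := by rw [hX, card_conjugatesOf, hx]
  have hcardZ : Nat.card Z ≤ p ^ a := by
    rw [hZ, card_conjugatesOf]
    exact Nat.le_of_dvd (pow_pos hp.out.pos a) hxy
  have hsurj : ∀ v ∈ conjugatesOf y, ∀ w ∈ Z, ∃ u ∈ X, u * v = w := by
    intro v hv w hw
    let f : X → Z := fun u => ⟨u.1 * v, hmem _ u.2 v hv⟩
    have hf : Function.Injective f := fun u u' e => Subtype.ext (mul_right_cancel (congrArg Subtype.val e))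
    obtain ⟨u, hu⟩ := (hf.bijective_of_nat_card_le (by rw [hcardX]; exact hcardZ)).2 ⟨w, hw⟩
    exact ⟨u, u.2, congrArg Subtype.val hu⟩
  let D : Subgroup G :=
    { carrier := {d | ∀ u : G, u ∈ X ↔ u * d ∈ X}
      one_mem' := fun u => by rw [mul_one]
      mul_mem' := fun {d e} hd he u => by rw [hd u, he (u * d), mul_assoc]
      inv_mem' := fun {d} hd u => by rw [hd (u * d⁻¹), inv_mul_cancel_right] }
  haveI hDn : D.Normal := ⟨fun d hd g u => by
    have hinv : ∀ w, w ∈ X ↔ g⁻¹ * w * g ∈ X := fun w => by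
      constructor
      · intro hw; exact (show IsConj x w from hw).trans (isConj_iff.mpr ⟨g⁻¹, by group⟩)
      · intro hw; exact (show IsConj x _ from hw).trans (isConj_iff.mpr ⟨g, by group⟩)
    rw [hinv u, hd, hinv (u * (g * d * g⁻¹))]
    group⟩
  have hDy : ∀ v ∈ conjugatesOf y, v * y⁻¹ ∈ D := by
    intro v hv u
    have hy0 : y ∈ conjugatesOf y := mem_conjugatesOf_self
    constructor
    · intro hu
      obtain ⟨u', hu', e⟩ := hsurj y hy0 _ (hmem u hu v hv)
      have : u * (v * y⁻¹) = u' := by rw [← mul_assoc, ← e]; group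
      rwa [this]
    · intro hu
      obtain ⟨u', hu', e⟩ := hsurj v hv _ (hmem _ hu y hy0)
      have : u' = u := mul_right_cancel (e.trans (by group))
      rwa [← this]
  have hDp : IsPGroup p D := by
    have hpre : QuotientGroup.mk ⁻¹' ((QuotientGroup.mk : G → G ⧸ D) '' X) = X := by
      ext u
      constructor
      · rintro ⟨w, hw, e⟩
        have h2 := (QuotientGroup.eq.mp e w).mp hw
        rwa [mul_inv_cancel_left] at h2
      · exact fun hu => ⟨u, hu, rfl⟩
    have h1 : Nat.card X = Nat.card D * Nat.card ((QuotientGroup.mk : G → G ⧸ D) '' X) := by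
      rw [← Nat.card_prod, ← Nat.card_congr (QuotientGroup.preimageMkEquivSubgroupProdSet D _), hpre]
    obtain ⟨j, -, hj⟩ := (Nat.dvd_prime_pow hp.out).mp (hcardX ▸ Dvd.intro _ h1.symm)
    exact IsPGroup.of_card hj
  obtain ⟨k, hk⟩ := hyq
  have hconj : ∀ v ∈ conjugatesOf y, ∃ d ∈ D, d * y * d⁻¹ = v := by
    intro v hv
    have hmemD : ∀ d : D, v * (d : G) * y⁻¹ ∈ D := fun d => by
      have : v * (d : G) * y⁻¹ = (v * (d : G) * v⁻¹) * (v * y⁻¹) := by group
      rw [this]
      exact mul_mem (hDn.conj_mem _ d.2 v) (hDy v hv)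
    let σ : Equiv.Perm D := Equiv.ofBijective (fun d => ⟨_, hmemD d⟩)
      (Finite.injective_iff_bijective.mp fun d e h =>
        Subtype.ext (mul_left_cancel (mul_right_cancel (congrArg Subtype.val h))))
    have hiter : ∀ (n : ℕ) (d : D), (((σ ^ n) d : D) : G) = v ^ n * (d : G) * (y ^ n)⁻¹ := by
      intro n d
      induction n with
      | zero => simp
      | succ n ih =>
        rw [pow_succ', Equiv.Perm.mul_apply]
        show v * (((σ ^ n) d : D) : G) * y⁻¹ = _
        rw [ih, pow_succ' v, pow_succ y, mul_inv_rev]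
        group
    have hvq : v ^ q ^ k = 1 := by
      obtain ⟨g, rfl⟩ := isConj_iff.mp hv
      rw [conj_pow, ← hk, pow_orderOf_eq_one, mul_one, mul_inv_cancel]
    have hσ : σ ^ q ^ k = 1 := by
      ext d
      rw [hiter, hvq, ← hk, pow_orderOf_eq_one, one_mul, inv_one, mul_one, Equiv.Perm.one_apply]
    haveI : Fintype D := Fintype.ofFinite D
    obtain ⟨j, hj⟩ := IsPGroup.iff_card.mp hDp
    obtain ⟨d, hd⟩ := Equiv.Perm.exists_fixed_point_of_prime (p := q) (n := k) (by
      rw [← Nat.card_eq_fintype_card, hj]; exact not_dvd_prime_pow hq.out hp.out hpq j) hσ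
    refine ⟨d, d.2, ?_⟩
    have h2 : v * (d : G) * y⁻¹ = (d : G) := congrArg Subtype.val hd
    rw [mul_inv_eq_iff_eq_mul] at h2 ⊢
    exact h2.symm
  have h3 : D ⊔ Subgroup.centralizer ({y} : Set G) = ⊤ := by
    rw [eq_top_iff]
    intro g _
    obtain ⟨d, hd, e⟩ := hconj _ (isConj_iff.mpr ⟨g, rfl⟩)
    have h4 : d⁻¹ * g ∈ Subgroup.centralizer ({y} : Set G) := by
      rw [Subgroup.mem_centralizer_singleton_iff]
      calc d⁻¹ * g * y = d⁻¹ * (g * y * g⁻¹) * g := by group
        _ = d⁻¹ * (d * y * d⁻¹) * g := by rw [e]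
        _ = y * (d⁻¹ * g) := by group
    have : g = d * (d⁻¹ * g) := by group
    rw [this]
    exact mul_mem (Subgroup.mem_sup_left hd) (Subgroup.mem_sup_right h4)
  have hrel : (Subgroup.centralizer ({y} : Set G)).relIndex D = r ^ b := by
    rw [← hy, ← PrimePowerClass.relIndex_eq_of_sup (C := Subgroup.centralizer ({y} : Set G)) (H := ⊤)
      (N := D) le_top (by rw [inf_top_eq, sup_comm, h3]), Subgroup.relIndex_top_right]
  obtain ⟨j, hj⟩ := IsPGroup.iff_card.mp hDp
  have hd2 : r ^ b ∣ p ^ j := by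
    rw [← hrel, ← hj]
    exact Subgroup.relIndex_dvd_card _ _
  exact hrp ((Nat.prime_dvd_prime_iff_eq hr hp.out).mp
    (hr.dvd_of_dvd_pow ((dvd_pow_self r hb).trans hd2)))

end CfsgLib.QBaer
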