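import Cfsg.Agent.QBaer.Basic
import Cfsg.Agent.PPowerOrbits.Main
import Mathlib.GroupTheory.SchurZassenhaus

/-!
Baer's theorem on `q`-Baer groups: `q`-length one, one prime for all classes, and the structure
of the two cases.
-/

set_option autoImplicit false

universe u

open Cfsg

namespace CfsgLib.QBaer

variable {G : Type u} [Group G] [Finite G] {q : ℕ} [hq : Fact q.Prime]

theorem exists_pow_orderOf_sylow (Q : Sylow q G) {u : G} (hu : u ∈ (Q : Subgroup G)) :
    ∃ k : ℕ, orderOf u = q ^ k := by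
  obtain ⟨k, hk⟩ := IsPGroup.iff_orderOf.mp Q.isPGroup' ⟨u, hu⟩
  exact ⟨k, by rw [← hk]; exact (Subgroup.orderOf_mk u hu).symm⟩

/-- with `O_{q'} = 1`, the group `O_q` is the only Sylow `q`-subgroup -/
theorem IsBaer.sylow_eq (h : IsBaer q G) (hO : pPrimeCore q G = ⊥) (Q : Sylow q G) :
    (Q : Subgroup G) = pCore q G := by
  refine le_antisymm (fun u hu => ?_) (Constrained.isPGroup_pCore.le_sylow_of_normal Q)
  exact mem_pCore hO (exists_pow_orderOf_sylow Q hu) (h u (exists_pow_orderOf_sylow Q hu))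

theorem IsBaer.image_sylow (h : IsBaer q G) (Q : Sylow q G) :
    (Q : Subgroup G).map (QuotientGroup.mk' (pPrimeCore q G)) = pCore q (G ⧸ pPrimeCore q G) := by
  have := (h.quotient (pPrimeCore q G)).sylow_eq Constrained.pPrimeCore_quotient_pPrimeCore
    (Q.mapSurjective (QuotientGroup.mk'_surjective (pPrimeCore q G)))
  simpa using this

theorem IsBaer.qLength_one (h : IsBaer q G) (Q : Sylow q G) :
    ∃ K L : Subgroup G, K.Normal ∧ L.Normal ∧ K ≤ L ∧ (Nat.card K).Coprime q ∧
      (∃ m : ℕ, K.relIndex L = q ^ m) ∧ L.index.Coprime q := by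
  set K := pPrimeCore q G with hK
  refine ⟨K, (pCore q (G ⧸ K)).comap (QuotientGroup.mk' K), inferInstance, inferInstance, ?_,
    Constrained.pPrimeCore_coprime, ?_, ?_⟩
  · intro x hx
    rw [Subgroup.mem_comap, show QuotientGroup.mk' K x = 1 from (QuotientGroup.eq_one_iff x).mpr hx]
    exact one_mem _
  · obtain ⟨m, hm⟩ := IsPGroup.iff_card.mp (Constrained.isPGroup_pCore (G := G ⧸ K) (p := q))
    refine ⟨m, ?_⟩
    rw [Constrained.relIndex_eq_card_map, Subgroup.map_comap_eq_self_of_surjective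
      (QuotientGroup.mk'_surjective K), hm]
  · have hle : (Q : Subgroup G) ≤ (pCore q (G ⧸ K)).comap (QuotientGroup.mk' K) := by
      rw [← Subgroup.map_le_iff_le_comap, h.image_sylow Q]
    refine (Nat.Prime.coprime_iff_not_dvd hq.out).mpr (fun hd => ?_) |>.symm
    exact Q.not_dvd_index (hd.trans (Subgroup.index_dvd_of_le hle))

/-- if every element of `q`-power order with non-trivial class centralises no Sylow `q`-subgroup,
the Sylow `q`-subgroup is a direct factor -/
theorem IsBaer.direct_of_qPower (h : IsBaer q G) (Q : Sylow q G) {x : G}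
    (hx : ∃ k : ℕ, orderOf x = q ^ k) {a : ℕ}
    (hxa : (Subgroup.centralizer ({x} : Set G)).index = q ^ a) (ha : a ≠ 0) :
    (Q : Subgroup G).Normal ∧
      ∀ u ∈ (Q : Subgroup G), ∀ g : G, (orderOf g).Coprime q → g * u = u * g := by
  classical
  have hxN : x ∈ pCore q G := PrimePowerClass.mem_pCore_of_pElem hx ⟨a, hxa⟩
  -- every element is of one of two types
  have htype : ∀ u ∈ (Q : Subgroup G), u ∈ pCore q G ∧
      (∃ b, (Subgroup.centralizer ({u} : Set G)).index = q ^ b) ∨
      ¬ q ∣ (Subgroup.centralizer ({u} : Set G)).index := by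
    intro u hu
    obtain ⟨r, b, hr, hb⟩ := h u (exists_pow_orderOf_sylow Q hu)
    rcases eq_or_ne r q with rfl | hrq
    · exact Or.inl ⟨PrimePowerClass.mem_pCore_of_pElem (exists_pow_orderOf_sylow Q hu) ⟨b, hb⟩, b, hb⟩
    · exact Or.inr (hb ▸ not_dvd_prime_pow hq.out hr hrq b)
  have hNQ : pCore q G ≤ (Q : Subgroup G) := Constrained.isPGroup_pCore.le_sylow_of_normal Q
  have hQN : (Q : Subgroup G) = pCore q G := by
    refine le_antisymm (fun u hu => ?_) hNQ
    by_contra huN
    have hcent : ∀ w ∈ (Q : Subgroup G), w ∉ pCore q G → ∀ n ∈ pCore q G, w * n = n * w :=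
      fun w hw hwN n hn => by
        rcases htype w hw with ⟨h1, -⟩ | h1
        · exact absurd h1 hwN
        · exact commute_of_normal h1 inferInstance Constrained.isPGroup_pCore hn
    have hall : ∀ w ∈ (Q : Subgroup G), w * x = x * w := by
      intro w hw
      by_cases hwN : w ∈ pCore q G
      · have h1 := hcent u hu huN
        have h2 := hcent (u * w) (mul_mem hu hw) (fun e => huN (by
          have := mul_mem e (inv_mem hwN); rwa [mul_inv_cancel_right] at this)) x hxN
        rw [mul_assoc, ← mul_assoc x u w, ← h1 x hxN, mul_assoc u x w] at h2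
        exact mul_left_cancel h2
      · exact hcent w hw hwN x hxN
    have hle : (Q : Subgroup G) ≤ Subgroup.centralizer ({x} : Set G) := fun w hw =>
      Subgroup.mem_centralizer_singleton_iff.mpr (hall w hw)
    have h1 : q ∣ (Q : Subgroup G).index :=
      (hxa ▸ dvd_pow_self q ha).trans (Subgroup.index_dvd_of_le hle)
    exact Q.not_dvd_index h1
  haveI hQn : (Q : Subgroup G).Normal := by rw [hQN]; infer_instance
  refine ⟨hQn, ?_⟩
  have hxQ : x ∈ (Q : Subgroup G) := hNQ hxN
  -- each Sylow subgroup for another prime centralises `Q`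
  have key : ∀ r : ℕ, r.Prime → r ≠ q → ∀ R : Sylow r G,
      ∀ u ∈ (Q : Subgroup G), ∀ ρ ∈ (R : Subgroup G), ρ * u = u * ρ := by
    intro r hr hrq R
    haveI := Fact.mk hr
    let H : Subgroup G := (Q : Subgroup G) ⊓ Subgroup.centralizer ((R : Subgroup G) : Set G)
    have hsplit : ∀ u ∈ (Q : Subgroup G), (∀ w ∈ (Q : Subgroup G), w * u = u * w) ∨
        ∃ v ∈ (Q : Subgroup G), v * u * v⁻¹ ∈ H := by
      intro u hu
      rcases htype u hu with ⟨-, b, hb⟩ | hb
      · right
        obtain ⟨R', hR'⟩ := exists_sylow_le (q := r) (Subgroup.centralizer ({u} : Set G))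
          (hb ▸ not_dvd_prime_pow hr hq.out hrq.symm b)
        obtain ⟨g, hg⟩ := MulAction.exists_smul_eq G R' R
        have hcop : (Q : Subgroup G).index.Coprime (Subgroup.centralizer ({u} : Set G)).index := by
          rw [hb]
          exact Nat.Coprime.pow_right b
            (Nat.Coprime.symm ((Nat.Prime.coprime_iff_not_dvd hq.out).mpr Q.not_dvd_index))
        obtain ⟨v, hv, c, hc, rfl⟩ := Product.exists_mul_of_coprime_index hcop g
        refine ⟨v, hv, Subgroup.mem_inf.mpr ⟨mul_mem (mul_mem hv hu) (inv_mem hv), Subgroup.mem_centralizer_iff.mpr fun ρ hρ => ?_⟩⟩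
        rw [← hg, SetLike.mem_coe, Sylow.coe_subgroup_smul] at hρ
        obtain ⟨ρ', hρ', rfl⟩ := hρ
        have h1 := Subgroup.mem_centralizer_singleton_iff.mp hc
        have h2 := Subgroup.mem_centralizer_singleton_iff.mp (hR' hρ')
        have h3 : v * u * v⁻¹ = v * c * u * (v * c)⁻¹ := by rw [mul_assoc v c u, h1]; group
        show v * c * ρ' * (v * c)⁻¹ * (v * u * v⁻¹) = v * u * v⁻¹ * (v * c * ρ' * (v * c)⁻¹)
        rw [h3]
        calc v * c * ρ' * (v * c)⁻¹ * (v * c * u * (v * c)⁻¹)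
            = v * c * (ρ' * u) * (v * c)⁻¹ := by group
          _ = v * c * (u * ρ') * (v * c)⁻¹ := by rw [h2]
          _ = _ := by group
      · left
        exact fun w hw => (commute_of_normal hb hQn Q.isPGroup' hw).symm
    let Z : Subgroup G := (Q : Subgroup G) ⊓ Subgroup.centralizer ((Q : Subgroup G) : Set G)
    have hZc : ∀ z ∈ Z, ∀ w ∈ (Q : Subgroup G), w * z = z * w :=
      fun z hz w hw => Subgroup.mem_centralizer_iff.mp hz.2 w hw
    -- the elements fixed by a conjugate of `R` and the centre generate `Q`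
    have htop : (H ⊔ Z).subgroupOf (Q : Subgroup G) = ⊤ := by
      by_contra hne
      obtain ⟨M, hM, hle⟩ := (eq_top_or_exists_le_coatom _).resolve_left hne
      haveI : Group.IsNilpotent (Q : Subgroup G) := Q.isPGroup'.isNilpotent
      haveI hMn : M.Normal := Subgroup.NormalizerCondition.normal_of_coatom M normalizerCondition_of_isNilpotent hM
      apply hM.1
      rw [eq_top_iff]
      rintro ⟨u, hu⟩ -
      rcases hsplit u hu with h1 | ⟨v, hv, h1⟩
      · exact hle (Subgroup.mem_subgroupOf.mpr (Subgroup.mem_sup_right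
          ⟨hu, Subgroup.mem_centralizer_iff.mpr h1⟩))
      · have h2 : (⟨v, hv⟩ : (Q : Subgroup G)) * ⟨u, hu⟩ * ⟨v, hv⟩⁻¹ ∈ M :=
          hle (Subgroup.mem_subgroupOf.mpr (Subgroup.mem_sup_left h1))
        have h3 := hMn.conj_mem _ h2 (⟨v, hv⟩ : (Q : Subgroup G))⁻¹
        rwa [inv_inv, ← mul_assoc, ← mul_assoc, inv_mul_cancel, one_mul, inv_mul_cancel_right] at h3
    have hQle : ∀ u ∈ (Q : Subgroup G), ∃ h ∈ H, ∃ z ∈ Z, h * z = u := by
      intro u hu
      have h1 : u ∈ H ⊔ Z := Subgroup.mem_subgroupOf.mp (show (⟨u, hu⟩ : (Q : Subgroup G)) ∈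
        (H ⊔ Z).subgroupOf (Q : Subgroup G) by rw [htop]; trivial)
      have hHZ : H ≤ Subgroup.normalizer (Z : Set G) := by
        intro g hg
        rw [Subgroup.mem_normalizer_iff]
        intro n
        constructor
        · intro hn
          rwa [hZc n hn g hg.1, mul_inv_cancel_right]
        · intro hn
          have h2 := hZc _ hn g hg.1
          have : g * n * g⁻¹ = n := by
            have h3 : g * (g * n * g⁻¹) = g * n := by rw [h2]; group
            exact mul_left_cancel h3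
          rwa [this] at hn
      rw [← SetLike.mem_coe, Subgroup.coe_mul_of_left_le_normalizer_right H Z hHZ] at h1
      obtain ⟨a', ha', b', hb', e⟩ := Set.mem_mul.mp h1
      exact ⟨a', ha', b', hb', e⟩
    obtain ⟨h₀, hh₀, z₀, hz₀, e₀⟩ := hQle x hxQ
    have hh₀Z : h₀ ∉ Z := by
      intro hh
      have hxZ : x ∈ Z := e₀ ▸ mul_mem hh hz₀
      have hle : (Q : Subgroup G) ≤ Subgroup.centralizer ({x} : Set G) := fun w hw =>
        Subgroup.mem_centralizer_singleton_iff.mpr (hZc x hxZ w hw)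
      exact Q.not_dvd_index ((hxa ▸ dvd_pow_self q ha).trans (Subgroup.index_dvd_of_le hle))
    have hZH : ∀ z ∈ Z, z ∈ H := by
      intro z hz
      have hu : h₀ * z ∈ (Q : Subgroup G) := mul_mem hh₀.1 hz.1
      rcases hsplit _ hu with h1 | ⟨v, hv, h1⟩
      · exfalso
        refine hh₀Z ⟨hh₀.1, Subgroup.mem_centralizer_iff.mpr fun w hw => ?_⟩
        have h2 : w * (h₀ * z) = h₀ * z * w := h1 w hw
        rw [← mul_assoc, mul_assoc h₀ z w, ← hZc z hz w hw, ← mul_assoc] at h2
        exact mul_right_cancel h2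
      · obtain ⟨hv', hhv', z', hz', e'⟩ := hQle v hv
        have e2 : v * (h₀ * z) * v⁻¹ = hv' * h₀ * hv'⁻¹ * z := by
          rw [← e']
          calc hv' * z' * (h₀ * z) * (hv' * z')⁻¹
              = hv' * ((z' * (h₀ * z)) * z'⁻¹) * hv'⁻¹ := by group
            _ = hv' * ((h₀ * z) * z' * z'⁻¹) * hv'⁻¹ := by rw [hZc z' hz' _ hu]
            _ = hv' * h₀ * (z * hv'⁻¹) := by group
            _ = hv' * h₀ * (hv'⁻¹ * z) := by rw [hZc z hz _ (inv_mem hhv'.1)]
            _ = hv' * h₀ * hv'⁻¹ * z := by group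
        rw [e2] at h1
        have h3 : (hv' * h₀ * hv'⁻¹) ∈ H := mul_mem (mul_mem hhv' hh₀) (inv_mem hhv')
        have := mul_mem (inv_mem h3) h1
        rwa [inv_mul_cancel_left] at this
    intro u hu ρ hρ
    obtain ⟨a', ha', b', hb', rfl⟩ := hQle u hu
    exact Subgroup.mem_centralizer_iff.mp (mul_mem ha' (hZH b' hb')).2 ρ hρ
  intro u hu g hg
  set C := Subgroup.centralizer ((Q : Subgroup G) : Set G) with hC
  obtain ⟨j, hj⟩ : ∃ j, C.index = q ^ j := by
    refine ⟨_, Nat.eq_prime_pow_of_unique_prime_dvd Subgroup.index_ne_zero_of_finite fun {r} hr hrd => ?_⟩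
    by_contra hrq
    haveI := Fact.mk hr
    let R : Sylow r G := Classical.arbitrary _
    have hle : (R : Subgroup G) ≤ C := fun ρ hρ =>
      Subgroup.mem_centralizer_iff.mpr fun w hw => (key r hr hrq R w hw ρ hρ).symm
    exact R.not_dvd_index (hrd.trans (Subgroup.index_dvd_of_le hle))
  haveI hCn : C.Normal := Subgroup.normal_centralizer
  have h1 : g ^ q ^ j ∈ C := hj ▸ C.pow_index_mem g
  obtain ⟨m, hm⟩ : ∃ m : ℕ, (g ^ q ^ j) ^ m = g := exists_pow_eq_self_of_coprime (hg.symm.pow_left j)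
  have hgC : g ∈ C := hm ▸ pow_mem h1 m
  exact (Subgroup.mem_centralizer_iff.mp hgC u hu).symm

/-- the part of the conclusion for `p = q` -/
theorem exists_complement_of_direct {Q : Sylow q G} (hQ : (Q : Subgroup G).Normal)
    (hcent : ∀ u ∈ (Q : Subgroup G), ∀ g : G, (orderOf g).Coprime q → g * u = u * g) :
    (∀ x : G, (∃ k : ℕ, orderOf x = q ^ k) →
      ∃ a : ℕ, (Subgroup.centralizer ({x} : Set G)).index = q ^ a) ∧
      ∃ N : Subgroup G, N.Normal ∧ N.IsComplement' (Q : Subgroup G) := by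
  haveI := hQ
  obtain ⟨K, hK⟩ := Subgroup.exists_right_complement'_of_coprime Q.card_coprime_index
  have hKcop : (Nat.card K).Coprime q := by
    rw [← hK.symm.index_eq_card]
    exact ((Nat.Prime.coprime_iff_not_dvd hq.out).mpr Q.not_dvd_index).symm
  have hKc : ∀ g ∈ K, ∀ u ∈ (Q : Subgroup G), g * u = u * g := fun g hg u hu =>
    hcent u hu g (hKcop.coprime_dvd_left (K.orderOf_dvd_natCard hg))
  refine ⟨fun x hx => ?_, K, ⟨fun n hn g => ?_⟩, hK.symm⟩
  · have hxQ : x ∈ (Q : Subgroup G) := by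
      obtain ⟨Q', hQ'⟩ := (isPGroup_zpowers hx).exists_le_sylow
      obtain ⟨g, hg⟩ := MulAction.exists_smul_eq G Q Q'
      have h1 : x ∈ (Q' : Subgroup G) := hQ' (Subgroup.mem_zpowers x)
      rw [← hg, Sylow.coe_subgroup_smul] at h1
      obtain ⟨w, hw, rfl⟩ := h1
      exact hQ.conj_mem w hw g
    have hle : K ≤ Subgroup.centralizer ({x} : Set G) := fun g hg =>
      Subgroup.mem_centralizer_singleton_iff.mpr (hKc g hg x hxQ)
    have h1 := Subgroup.index_dvd_of_le hle
    obtain ⟨m, hm⟩ := IsPGroup.iff_card.mp Q.isPGroup'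
    rw [hK.index_eq_card, hm] at h1
    obtain ⟨b, -, hb⟩ := (Nat.dvd_prime_pow hq.out).mp h1
    exact ⟨b, hb⟩
  · obtain ⟨⟨⟨u, hu⟩, ⟨k, hk⟩⟩, rfl : u * k = g⟩ := hK.surjective g
    have h1 : k * n * k⁻¹ ∈ K := mul_mem (mul_mem hk hn) (inv_mem hk)
    have h2 : u * k * n * (u * k)⁻¹ = k * n * k⁻¹ := by
      calc u * k * n * (u * k)⁻¹ = u * (k * n * k⁻¹) * u⁻¹ := by group
        _ = (k * n * k⁻¹) * u * u⁻¹ := by rw [hKc _ h1 u hu]
        _ = _ := by group
    rw [h2]; exact h1

/-- Baer: one prime serves for all elements -/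
theorem IsBaer.one_prime (h : IsBaer q G) {p : ℕ} [hp : Fact p.Prime] (hpq : p ≠ q)
    (hno : ∀ x : G, (∃ k : ℕ, orderOf x = q ^ k) →
      ∀ a : ℕ, (Subgroup.centralizer ({x} : Set G)).index = q ^ a → a = 0)
    {x : G} (hx : ∃ k : ℕ, orderOf x = q ^ k) {a : ℕ}
    (hxa : (Subgroup.centralizer ({x} : Set G)).index = p ^ a) (ha : a ≠ 0) {y : G}
    (hy : ∃ k : ℕ, orderOf y = q ^ k) :
    ∃ b : ℕ, (Subgroup.centralizer ({y} : Set G)).index = p ^ b := by
  obtain ⟨r, b, hr, hyb⟩ := h y hy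
  rcases Nat.eq_zero_or_pos b with rfl | hb
  · exact ⟨0, by rw [hyb, pow_zero, pow_zero]⟩
  rcases eq_or_ne r p with rfl | hrp
  · exact ⟨b, hyb⟩
  exfalso
  haveI := Fact.mk hr
  have hrq : r ≠ q := by
    rintro rfl
    exact absurd (hno y hy b hyb) hb.ne'
  obtain ⟨Qx, hQx⟩ := exists_sylow_le (q := q) (Subgroup.centralizer ({x} : Set G))
    (hxa ▸ not_dvd_prime_pow hq.out hp.out hpq a)
  obtain ⟨Qy, hQy⟩ := exists_sylow_le (q := q) (Subgroup.centralizer ({y} : Set G))
    (hyb ▸ not_dvd_prime_pow hq.out hr hrq b)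
  obtain ⟨g, hg⟩ := MulAction.exists_smul_eq G Qy Qx
  obtain ⟨ky, hky⟩ := hy
  set y' := g * y * g⁻¹ with hy'
  have hy'o : ∃ k : ℕ, orderOf y' = q ^ k := ⟨ky, by
    rw [← hky, hy', ← MulAut.conj_apply, MulEquiv.orderOf_eq]⟩
  have hy'i : (Subgroup.centralizer ({y'} : Set G)).index = r ^ b := by
    rw [← card_conjugatesOf, hy', ← (show conjugatesOf y = conjugatesOf (g * y * g⁻¹) from
      (isConj_iff.mpr ⟨g, rfl⟩ : IsConj y (g * y * g⁻¹)).conjugatesOf_eq), card_conjugatesOf, hyb]
  have hxQ : x ∈ (Qx : Subgroup G) := mem_sylow_of_centralizes hx Qx fun u hu =>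
    Subgroup.mem_centralizer_singleton_iff.mp (hQx hu)
  have hy'c : ∀ u ∈ (Qx : Subgroup G), u * y' = y' * u := by
    intro u hu
    rw [← hg, Sylow.coe_subgroup_smul] at hu
    obtain ⟨w, hw, rfl⟩ := hu
    have h1 := Subgroup.mem_centralizer_singleton_iff.mp (hQy hw)
    show g * w * g⁻¹ * (g * y * g⁻¹) = g * y * g⁻¹ * (g * w * g⁻¹)
    calc g * w * g⁻¹ * (g * y * g⁻¹) = g * (w * y) * g⁻¹ := by group
      _ = g * (y * w) * g⁻¹ := by rw [h1]
      _ = _ := by group
  have hcomm : Commute x y' := hy'c x hxQ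
  obtain ⟨kx, hkx⟩ := hx
  obtain ⟨k', hk'⟩ := hy'o
  have hz : ∃ k : ℕ, orderOf (x * y') = q ^ k := by
    have h1 : (x * y') ^ q ^ (kx + k') = 1 := by
      rw [hcomm.mul_pow, pow_add, pow_mul, ← hkx, pow_orderOf_eq_one, one_pow, one_mul, mul_comm,
        pow_mul, ← hk', pow_orderOf_eq_one, one_pow]
    obtain ⟨j, -, hj⟩ := (Nat.dvd_prime_pow hq.out).mp (orderOf_dvd_of_pow_eq_one h1)
    exact ⟨j, hj⟩
  obtain ⟨s, c, hs, hzc⟩ := h _ hz
  have hcop : Nat.Coprime (p ^ a) (r ^ b) := Nat.coprime_pow_primes _ _ hp.out hr hrp.symm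
  have hdvd : (Subgroup.centralizer ({x * y'} : Set G)).index ∣ p ^ a * r ^ b := by
    refine (Subgroup.index_dvd_of_le (H := Subgroup.centralizer ({x} : Set G) ⊓
      Subgroup.centralizer ({y'} : Set G)) fun w hw => Subgroup.mem_centralizer_singleton_iff.mpr ?_).trans ?_
    · have h1 := Subgroup.mem_centralizer_singleton_iff.mp hw.1
      have h2 := Subgroup.mem_centralizer_singleton_iff.mp hw.2
      exact ((show Commute w x from h1).mul_right h2).eq
    · refine dvd_of_eq (Nat.le_antisymm ?_ (Nat.le_of_dvd (Nat.pos_of_ne_zero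
        Subgroup.index_ne_zero_of_finite) ?_))
      · rw [← hxa, ← hy'i]; exact Subgroup.index_inf_le
      · exact hcop.mul_dvd_of_dvd_of_dvd (hxa ▸ Subgroup.index_dvd_of_le inf_le_left)
          (hy'i ▸ Subgroup.index_dvd_of_le inf_le_right)
  rw [hzc] at hdvd
  rcases Nat.eq_zero_or_pos c with rfl | hc
  · exact no_mixed (p := p) (r := r) (q := q) hr hpq hrp hxa hy'i hb.ne' ⟨k', hk'⟩
      (by rw [hzc, pow_zero]; exact one_dvd _)
  have hs' : s = p ∨ s = r := by
    rcases (Nat.Prime.dvd_mul hs).mp ((dvd_pow_self s hc.ne').trans hdvd) with h' | h'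
    · exact Or.inl ((Nat.prime_dvd_prime_iff_eq hs hp.out).mp (hs.dvd_of_dvd_pow h'))
    · exact Or.inr ((Nat.prime_dvd_prime_iff_eq hs hr).mp (hs.dvd_of_dvd_pow h'))
  rcases hs' with rfl | rfl
  · refine no_mixed (p := s) (r := r) (q := q) hr hpq hrp hxa hy'i hb.ne' ⟨k', hk'⟩ ?_
    rw [hzc]
    exact (Nat.Coprime.pow c b ((Nat.coprime_primes hs hr).mpr hrp.symm)).dvd_of_dvd_mul_right hdvd
  · refine no_mixed (p := s) (r := p) (q := q) hp.out hrq hrp.symm hy'i hxa ha ⟨kx, hkx⟩ ?_
    rw [← hcomm.eq, hzc]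
    exact (Nat.Coprime.pow c a ((Nat.coprime_primes hs hp.out).mpr hrp)).dvd_of_dvd_mul_left hdvd

/-- the Sylow subgroup is abelian when all classes have sizes prime to `q` -/
theorem IsBaer.sylow_commutative (h : IsBaer q G) {p : ℕ} (hp : p.Prime) (hpq : p ≠ q)
    (hP : ∀ x : G, (∃ k : ℕ, orderOf x = q ^ k) →
      ∃ a : ℕ, (Subgroup.centralizer ({x} : Set G)).index = p ^ a) (Q : Sylow q G) :
    ∀ u ∈ (Q : Subgroup G), ∀ v ∈ (Q : Subgroup G), u * v = v * u := by
  intro u hu v hv
  obtain ⟨a, ha⟩ := hP u (exists_pow_orderOf_sylow Q hu)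
  obtain ⟨Q', hQ'⟩ := exists_sylow_le (q := q) (Subgroup.centralizer ({u} : Set G))
    (ha ▸ not_dvd_prime_pow hq.out hp hpq a)
  have h1 : QuotientGroup.mk' (pPrimeCore q G) v ∈ (Q' : Subgroup G).map (QuotientGroup.mk' (pPrimeCore q G)) := by
    rw [h.image_sylow Q', ← h.image_sylow Q]
    exact ⟨v, hv, rfl⟩
  obtain ⟨w, hw, e⟩ := h1
  have h2 := Subgroup.mem_centralizer_singleton_iff.mp (hQ' hw)
  have h3 : (u * v * u⁻¹ * v⁻¹) ∈ pPrimeCore q G := by
    rw [← QuotientGroup.eq_one_iff]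
    have := congrArg (QuotientGroup.mk' (pPrimeCore q G)) h2
    rw [map_mul, map_mul, e] at this
    show (QuotientGroup.mk' (pPrimeCore q G)) (u * v * u⁻¹ * v⁻¹) = 1
    rw [map_mul, map_mul, map_mul, map_inv, map_inv, ← this]
    group
  have h4 : u * v * u⁻¹ * v⁻¹ ∈ (Q : Subgroup G) := mul_mem (mul_mem (mul_mem hu hv) (inv_mem hu)) (inv_mem hv)
  have h5 : u * v * u⁻¹ * v⁻¹ = 1 := by
    have hbot := Constrained.disjoint_of_isPGroup_of_not_dvd Q.isPGroup'
      (Constrained.pPrimeCore_not_dvd (p := q) (G := G))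
    exact Subgroup.mem_bot.mp (hbot ▸ Subgroup.mem_inf.mpr ⟨h4, h3⟩)
  rw [mul_inv_eq_one, mul_inv_eq_iff_eq_mul] at h5
  exact h5

/-- `O_p(G) Q` is normal -/
theorem pCore_sup_normal {p : ℕ} [hp : Fact p.Prime]
    (hP : ∀ x : G, (∃ k : ℕ, orderOf x = q ^ k) →
      ∃ a : ℕ, (Subgroup.centralizer ({x} : Set G)).index = p ^ a) (Q : Sylow q G) :
    (pCore p G ⊔ (Q : Subgroup G)).Normal := by
  set f := QuotientGroup.mk' (pCore p G) with hf
  have hsurj : Function.Surjective f := QuotientGroup.mk'_surjective _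
  have h1 : (Q : Subgroup G).map f = pCore q (G ⧸ pCore p G) := by
    refine le_antisymm ?_ ?_
    · rintro _ ⟨u, hu, rfl⟩
      obtain ⟨k, hk⟩ := exists_pow_orderOf_sylow Q hu
      obtain ⟨j, -, hj⟩ := (Nat.dvd_prime_pow hq.out).mp (hk ▸ orderOf_map_dvd f u)
      obtain ⟨a, ha⟩ := hP u ⟨k, hk⟩
      obtain ⟨b, -, hb⟩ := (Nat.dvd_prime_pow hp.out).mp
        (ha ▸ PrimePowerClass.index_map_centralizer_dvd f hsurj u)
      exact mem_pCore_of_pPower (p := p) Constrained.pCore_quotient_pCore ⟨j, hj⟩ ⟨b, hb⟩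
    · have := (Constrained.isPGroup_pCore (G := G ⧸ pCore p G) (p := q)).le_sylow_of_normal
        (Q.mapSurjective hsurj)
      simpa using this
  have h2 : ((Q : Subgroup G).map f).comap f = pCore p G ⊔ (Q : Subgroup G) := by
    rw [Subgroup.comap_map_eq, hf, QuotientGroup.ker_mk', sup_comm]
  rw [← h2, h1]
  infer_instance

/-- the last clause: `G / O_{q'}` is solvable -/
theorem IsBaer.quotient_solvable (h : IsBaer q G) (hO : pPrimeCore q G = ⊥) {p : ℕ}
    [hp : Fact p.Prime] (hpq : p ≠ q)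
    (hP : ∀ x : G, (∃ k : ℕ, orderOf x = q ^ k) →
      ∃ a : ℕ, (Subgroup.centralizer ({x} : Set G)).index = p ^ a) (Q : Sylow q G) :
    Group.IsSolvable G := by
  classical
  have hQN := h.sylow_eq hO Q
  haveI hQn : (Q : Subgroup G).Normal := by rw [hQN]; infer_instance
  have hab := h.sylow_commutative hp.out hpq hP Q
  obtain ⟨K, hK⟩ := Subgroup.exists_right_complement'_of_coprime Q.card_coprime_index
  have hKcop : (Nat.card K).Coprime q := by
    rw [← hK.symm.index_eq_card]
    exact ((Nat.Prime.coprime_iff_not_dvd hq.out).mpr Q.not_dvd_index).symm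
  let Ω : Subgroup G :=
    { carrier := {v | v ∈ (Q : Subgroup G) ∧ v ^ q = 1}
      one_mem' := ⟨one_mem _, one_pow _⟩
      mul_mem' := fun {a b} ha hb => ⟨mul_mem ha.1 hb.1, by
        rw [(show Commute a b from hab a ha.1 b hb.1).mul_pow, ha.2, hb.2, one_mul]⟩
      inv_mem' := fun {a} ha => ⟨inv_mem ha.1, by rw [inv_pow, ha.2, inv_one]⟩ }
  haveI hΩn : Ω.Normal := ⟨fun v hv g => ⟨hQn.conj_mem v hv.1 g, by
    rw [conj_pow, hv.2, mul_one, mul_inv_cancel]⟩⟩
  letI : CommGroup Ω :=
    { (inferInstance : Group Ω) with mul_comm := fun a b => Subtype.ext (hab _ a.2.1 _ b.2.1) }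
  letI act : DistribMulAction K (Additive Ω) :=
    { smul := fun k v => Additive.ofMul ⟨(k : G) * (Additive.toMul v : Ω) * (k : G)⁻¹,
        hΩn.conj_mem _ (Additive.toMul v).2 k⟩
      one_smul := fun v => congrArg Additive.ofMul (Subtype.ext (by
        show ((1 : K) : G) * _ * ((1 : K) : G)⁻¹ = _
        rw [Subgroup.coe_one, one_mul, inv_one, mul_one]; rfl))
      mul_smul := fun k l v => congrArg Additive.ofMul (Subtype.ext (by
        show ((k * l : K) : G) * _ * ((k * l : K) : G)⁻¹ = (k : G) * ((l : G) * _ * (l : G)⁻¹) * (k : G)⁻¹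
        rw [Subgroup.coe_mul]; group))
      smul_zero := fun k => congrArg Additive.ofMul (Subtype.ext (by
        show (k : G) * ((1 : Ω) : G) * (k : G)⁻¹ = ((1 : Ω) : G)
        simp))
      smul_add := fun k v w => congrArg Additive.ofMul (Subtype.ext (by
        show (k : G) * (((Additive.toMul v : Ω) : G) * ((Additive.toMul w : Ω) : G)) * (k : G)⁻¹ =
          (k : G) * ((Additive.toMul v : Ω) : G) * (k : G)⁻¹ * ((k : G) * ((Additive.toMul w : Ω) : G) * (k : G)⁻¹)
        group)) }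
  have hact : ∀ (k : K) (v : Additive Ω), k • v = v →
      (k : G) * ((Additive.toMul v : Ω) : G) = ((Additive.toMul v : Ω) : G) * (k : G) := by
    intro k v e
    have e' : (k : G) * ((Additive.toMul v : Ω) : G) * (k : G)⁻¹ = ((Additive.toMul v : Ω) : G) :=
      congrArg (fun w : Additive Ω => ((Additive.toMul w : Ω) : G)) e
    exact mul_inv_eq_iff_eq_mul.mp e'
  haveI : FaithfulSMul K (Additive Ω) := ⟨fun {k l} hkl => by
    set m := l⁻¹ * k with hm
    have hmv : ∀ v : Additive Ω, m • v = v := fun v => by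
      rw [hm, mul_smul, hkl v, smul_smul, inv_mul_cancel, one_smul]
    -- `m` centralises the whole Sylow subgroup
    have hcent : ∀ (i : ℕ) (v : G), v ∈ (Q : Subgroup G) → v ^ q ^ i = 1 → (m : G) * v = v * (m : G) := by
      intro i
      induction i with
      | zero => intro v _ hv; rw [pow_zero, pow_one] at hv; rw [hv, mul_one, one_mul]
      | succ i ih =>
        intro v hv hvi
        set w := (m : G) * v * (m : G)⁻¹ * v⁻¹ with hw
        have hwQ : w ∈ (Q : Subgroup G) := mul_mem (hQn.conj_mem v hv _) (inv_mem hv)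
        have hvq := ih (v ^ q) (pow_mem hv q) (by rw [← pow_mul, ← pow_succ']; exact hvi)
        have hwq : w ^ q = 1 := by
          rw [hw, (show Commute ((m : G) * v * (m : G)⁻¹) v⁻¹ from
            hab _ (hQn.conj_mem v hv _) _ (inv_mem hv)).mul_pow, conj_pow, hvq, mul_inv_cancel_right,
            inv_pow, mul_inv_cancel]
        have hmw := hact m (Additive.ofMul ⟨w, hwQ, hwq⟩) (hmv _)
        have hiter : ∀ j : ℕ, (m : G) ^ j * v * ((m : G) ^ j)⁻¹ = w ^ j * v := by
          intro j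
          induction j with
          | zero => simp
          | succ j ihj =>
            calc (m : G) ^ (j + 1) * v * ((m : G) ^ (j + 1))⁻¹
                = (m : G) * ((m : G) ^ j * v * ((m : G) ^ j)⁻¹) * (m : G)⁻¹ := by rw [pow_succ']; group
              _ = (m : G) * (w ^ j * v) * (m : G)⁻¹ := by rw [ihj]
              _ = ((m : G) * w ^ j) * v * (m : G)⁻¹ := by group
              _ = (w ^ j * (m : G)) * v * (m : G)⁻¹ := by
                rw [((show Commute (m : G) w from hmw).pow_right j).eq]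
              _ = w ^ j * ((m : G) * v * (m : G)⁻¹ * v⁻¹) * v := by group
              _ = w ^ (j + 1) * v := by rw [← hw, pow_succ]
        have h1 := hiter (orderOf (m : G))
        rw [pow_orderOf_eq_one, one_mul, inv_one, mul_one] at h1
        have h2 : w ^ orderOf (m : G) = 1 := mul_eq_right.mp h1.symm
        have h3 : orderOf w = 1 := Nat.eq_one_of_dvd_coprimes
          (hKcop.coprime_dvd_left (K.orderOf_dvd_natCard m.2))
          (orderOf_dvd_of_pow_eq_one h2) (orderOf_dvd_of_pow_eq_one hwq)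
        have h4 := orderOf_eq_one_iff.mp h3
        rw [hw, mul_inv_eq_one, mul_inv_eq_iff_eq_mul] at h4
        exact h4
    let C := K ⊓ Subgroup.centralizer ((Q : Subgroup G) : Set G)
    haveI hCn : C.Normal := ⟨fun c hc g => by
      obtain ⟨⟨⟨u, hu⟩, ⟨k', hk'⟩⟩, rfl : u * k' = g⟩ := hK.surjective g
      have hc' : k' * c * k'⁻¹ ∈ C := Subgroup.mem_inf.mpr
        ⟨mul_mem (mul_mem hk' (Subgroup.mem_inf.mp hc).1) (inv_mem hk'),
        (Subgroup.normal_centralizer (H := (Q : Subgroup G))).conj_mem c (Subgroup.mem_inf.mp hc).2 k'⟩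
      have h1 := Subgroup.mem_centralizer_iff.mp hc'.2 u hu
      have : u * k' * c * (u * k')⁻¹ = k' * c * k'⁻¹ := by
        calc u * k' * c * (u * k')⁻¹ = (u * (k' * c * k'⁻¹)) * u⁻¹ := by group
          _ = (k' * c * k'⁻¹ * u) * u⁻¹ := by rw [h1]
          _ = _ := by group
      rw [this]; exact hc'⟩
    have hCbot : C ≤ ⊥ := hO ▸ Constrained.le_pPrimeCore hCn
      (hKcop.coprime_dvd_left (Subgroup.card_dvd_of_le inf_le_left))
    have hm1 : (m : G) = 1 := Subgroup.mem_bot.mp (hCbot ⟨m.2, Subgroup.mem_centralizer_iff.mpr fun v hv => by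
      obtain ⟨i, hi⟩ := exists_pow_orderOf_sylow Q hv
      exact (hcent i v hv (hi ▸ pow_orderOf_eq_one v)).symm⟩)
    have hm1' : l⁻¹ * k = 1 := Subtype.ext hm1
    exact (inv_mul_eq_one.mp hm1').symm⟩
  haveI : Group.IsSolvable K := by
    refine PPowerOrbits.isSolvable_of_orbit_pPower (p := p) (q := q) (V := Additive Ω)
      (fun v => Additive.toMul.injective (Subtype.ext (by simpa using (Additive.toMul v).2.2))) hKcop
      fun v => ?_
    set w : G := ((Additive.toMul v : Ω) : G)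
    have hwQ : w ∈ (Q : Subgroup G) := (Additive.toMul v).2.1
    obtain ⟨a, ha⟩ := hP w (exists_pow_orderOf_sylow Q hwQ)
    refine ⟨a, ?_⟩
    set C := Subgroup.centralizer ({w} : Set G) with hC
    have e : MulAction.stabilizer K v = C.subgroupOf K := by
      ext k
      rw [Subgroup.mem_subgroupOf, hC, Subgroup.mem_centralizer_singleton_iff, MulAction.mem_stabilizer_iff]
      refine ⟨hact k v, fun e => ?_⟩
      apply Additive.toMul.injective
      apply Subtype.ext
      show (k : G) * w * (k : G)⁻¹ = w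
      rw [e, mul_inv_cancel_right]
    rw [e, ← ha]
    show C.relIndex K = C.index
    have hQC : (Q : Subgroup G) ≤ C := fun u hu =>
      Subgroup.mem_centralizer_singleton_iff.mpr (hab u hu w hwQ)
    have h1 : K.relIndex C = K.index := by
      refine le_antisymm (Subgroup.relIndex_top_right K ▸ Subgroup.relIndex_le_of_le_right le_top (by
        rw [Subgroup.relIndex_top_right]; exact Subgroup.index_ne_zero_of_finite)) ?_
      have h2 : K.relIndex (Q : Subgroup G) = K.index := by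
        rw [← Subgroup.inf_relIndex_right, inf_comm, hK.disjoint.eq_bot, Subgroup.relIndex_bot_left,
          hK.index_eq_card]
      rw [← h2]
      exact Subgroup.relIndex_le_of_le_right hQC Subgroup.index_ne_zero_of_finite
    have h3 := Subgroup.relIndex_mul_index (inf_le_left : C ⊓ K ≤ C)
    have h4 := Subgroup.relIndex_mul_index (inf_le_right : C ⊓ K ≤ K)
    rw [Subgroup.inf_relIndex_left, h1] at h3
    rw [Subgroup.inf_relIndex_right] at h4
    refine Nat.eq_of_mul_eq_mul_left (Nat.pos_of_ne_zero (Subgroup.index_ne_zero_of_finite (H := K))) ?_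
    rw [h3, ← h4, mul_comm]
  haveI : Group.IsSolvable (Q : Subgroup G) :=
    Group.isSolvable_of_comm fun a b => Subtype.ext (hab _ a.2 _ b.2)
  let f : K →* G ⧸ (Q : Subgroup G) := (QuotientGroup.mk' (Q : Subgroup G)).comp K.subtype
  have hfsurj : Function.Surjective f := by
    intro c
    induction c using QuotientGroup.induction_on with
    | H g =>
      obtain ⟨⟨⟨u, hu⟩, ⟨k, hk⟩⟩, rfl : u * k = g⟩ := hK.surjective g
      refine ⟨⟨k, hk⟩, ?_⟩
      show (QuotientGroup.mk k : G ⧸ (Q : Subgroup G)) = QuotientGroup.mk (u * k)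
      rw [QuotientGroup.mk_mul, (QuotientGroup.eq_one_iff u).mpr hu, one_mul]
  haveI : Group.IsSolvable (G ⧸ (Q : Subgroup G)) := Group.isSolvable_of_surjective hfsurj
  exact Group.isSolvable_of_ker_le_range (Q : Subgroup G).subtype (QuotientGroup.mk' (Q : Subgroup G))
    (by rw [QuotientGroup.ker_mk', Subgroup.range_subtype])

end CfsgLib.QBaer
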